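import Cfsg.Agent.L33.R

/-!
Facts about a coded 2-subgroup of a finite group, steps and nodes of a proof tree.
-/

set_option autoImplicit false
set_option linter.unusedSectionVars false

namespace CF.L33
open CF.HSo CF.Comp Subgroup CF.Loc
export CF.HSo (bits mem_bits ev)

universe u

inductive Fa
  | tt | dn
  | rc (kn : List T3) (us : List (ℕ × ℕ)) (q : ℕ)
  | nf (a M : ℕ)
  | cen (g els : List ℕ)
  | tsy (t M k : ℕ)
  | syl (n : ℕ)
  | is (t : ℕ)
  | nsy (g : List ℕ) (k : ℕ)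
  | ncl (z M : ℕ)
  | csy (g els : List ℕ)
  | cz (n M k : ℕ)

variable {G : Type u} [Group G]

/-- `S` consists of the elements with a code in `p` -/
def Sb (φ : ℕ → G) (S : Subgroup G) (p : ℕ → Prop) : Prop := ∀ x, x ∈ S ↔ ∃ a, p a ∧ φ a = x

def Inj (φ : ℕ → G) (N : ℕ) : Prop := ∀ a < N, ∀ b < N, φ a = φ b → a = b

/-- conjugation by `g` maps code `a` to code `b` -/
def Mp (φ : ℕ → G) (N : ℕ) (g : G) (a b : ℕ) : Prop := a < N ∧ b < N ∧ g * φ a * g⁻¹ = φ b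

def Kn (φ : ℕ → G) (N : ℕ) (g : G) (kn : List T3) : Prop :=
  ∀ r ∈ kn, Mp φ N g r.1 r.2.2 ∧ r.2.1 < N ∧ φ r.2.1 = (φ r.1)⁻¹

def Us (φ : ℕ → G) (N : ℕ) (g : G) (us : List (ℕ × ℕ)) : Prop :=
  ∀ r ∈ us, r.2 < 2 ^ N ∧ ∃ c, r.2.testBit c = true ∧ Mp φ N g r.1 c

def Cl (φ : ℕ → G) (l : List ℕ) : Subgroup G := closure (φ '' {a | a ∈ l})

/-- `g` normalizes the first `q` codes, lies outside, and its square is inside -/
def Fl (φ : ℕ → G) (N q : ℕ) (g : G) : Prop :=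
  q ≤ N ∧ (∀ a < q, φ a ≠ g ∧ ∃ b < q, g * φ a * g⁻¹ = φ b) ∧ (q = 0 ∨ ∃ a < q, φ a = g * g)

theorem Fl.z {φ : ℕ → G} {N : ℕ} {g : G} : Fl φ N 0 g := ⟨N.zero_le, fun _ h => (Nat.not_lt_zero _ h).elim, .inl rfl⟩

def Cc (E : Env G) : Prop := ¬ 2 ^ 11 ∣ Nat.card E.H

def Sem (E : Env G) (φ : ℕ → G) (N : ℕ) : Fa → Prop
  | .tt => True
  | .dn => Cc E
  | .rc kn us q => ∃ g, Kn φ N g kn ∧ Us φ N g us ∧ Fl φ N q g
  | .nf a M => a < N ∧ M < 2 ^ N ∧ ∀ x, M.testBit x = true → ¬ IsConj (φ a) (φ x)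
  | .cen g els => (∀ a ∈ g, a < N) ∧ (∀ e ∈ els, e < N) ∧ ∀ x, (∃ k, x ^ 2 ^ k = 1) → (∀ a ∈ g, φ a * x = x * φ a) →
      (∃ e ∈ els, φ e = x) ∧ x ∈ Cl φ g
  | .tsy t M k => t < N ∧ M < 2 ^ N ∧ ∃ S, Sb φ S (M.testBit · = true) ∧ IsSyl 2 S 𝐜(φ t) ∧ Nat.card S = k
  | .syl n => n ≤ N ∧ ∃ S, Sb φ S (· < n) ∧ IsSyl 2 S ⊤
  | .is t => t < N ∧ φ t = E.t
  | .nsy g k => (∀ a ∈ g, a < N) ∧ ∀ R : Subgroup G, IsPGroup 2 R → R ≤ 𝐍(Cl φ g) → Nat.card R ≤ k
  | .ncl z M => z < N ∧ M < 2 ^ N ∧ ∃ X L : Subgroup G, Sb φ X (M.testBit · = true) ∧ IsSyl 2 X L ∧ 𝐜(φ z) ≤ 𝐍(L)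
  | .csy g els => (∀ a ∈ g, a < N) ∧ (∀ e ∈ els, e < N) ∧ ∃ S, Sb φ S (· ∈ els) ∧ IsSyl 2 S 𝐂(Cl φ g)
  | .cz n M k => n ≤ N ∧ ∀ x < n, ¬ M.testBit x = true → ∀ S, Sb φ S (· < n) → Nat.card (S ⊓ 𝐜(φ x) :) < k

section
variable {E : Env G} {φ ψ : ℕ → G} {N N' : ℕ}

theorem Sb.cg {S : Subgroup G} {p : ℕ → Prop} (h : ∀ a, p a → ψ a = φ a) (k : Sb φ S p) : Sb ψ S p := fun x =>
  (k x).trans (exists_congr fun a => and_congr_right fun q => by rw [h a q])

theorem Cl.cg {l : List ℕ} (h : ∀ a ∈ l, ψ a = φ a) : Cl ψ l = Cl φ l := congrArg Subgroup.closure (Set.image_congr h)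

theorem Sem.mono (h : ∀ a < N, ψ a = φ a) (l : N ≤ N') : ∀ {f : Fa}, Sem E φ N f → Sem E ψ N' f := by
  have p : 2 ^ N ≤ 2 ^ N' := Nat.pow_le_pow_right two_pos l
  have mp : ∀ {g a b}, Mp φ N g a b → Mp ψ N' g a b := fun k =>
    ⟨k.1.trans_le l, k.2.1.trans_le l, by rw [h _ k.1, h _ k.2.1, k.2.2]⟩
  have us : ∀ {g us}, Us φ N g us → Us ψ N' g us := fun k r hr =>
    ⟨(k r hr).1.trans_le p, (k r hr).2.imp fun c q => ⟨q.1, mp q.2⟩⟩
  intro f k
  cases f with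
  | rc kn u q =>
    obtain ⟨g, k1, k2, k3, k4, k5⟩ := k
    have e := fun a (q : a < q) => h a (q.trans_le k3)
    exact ⟨g, fun r hr => ⟨mp (k1 r hr).1, (k1 r hr).2.1.trans_le l, by
      rw [h _ (k1 r hr).2.1, h _ (k1 r hr).1.1, (k1 r hr).2.2]⟩, us k2, k3.trans l, fun a ha => ⟨e a ha ▸ (k4 a ha).1,
        (k4 a ha).2.imp fun b r => ⟨r.1, by rw [e a ha, e b r.1, r.2]⟩⟩, k5.imp_right fun r => r.imp fun a r =>
          ⟨r.1, (e a r.1).trans r.2⟩⟩
  | nf a M => exact ⟨k.1.trans_le l, k.2.1.trans_le p, fun x hx => by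
      rw [h _ k.1, h _ (lt_of_bit k.2.1 hx)]; exact k.2.2 x hx⟩
  | cen g els =>
    refine ⟨fun a ha => (k.1 a ha).trans_le l, fun a ha => (k.2.1 a ha).trans_le l, fun x q c => ?_⟩
    obtain ⟨⟨e, he, rfl⟩, k2⟩ := k.2.2 x q fun a ha => h _ (k.1 a ha) ▸ c a ha
    exact ⟨⟨e, he, h _ (k.2.1 e he)⟩, by rwa [Cl.cg fun a ha => h _ (k.1 a ha)]⟩
  | tsy t M n =>
    obtain ⟨k1, k2, S, k3, k4⟩ := k
    exact ⟨k1.trans_le l, k2.trans_le p, S, k3.cg fun a q => h _ (lt_of_bit k2 q), by rwa [h _ k1]⟩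
  | is a => exact ⟨k.1.trans_le l, by rw [h _ k.1]; exact k.2⟩
  | syl n =>
    obtain ⟨k1, S, k3, k4⟩ := k
    exact ⟨k1.trans l, S, k3.cg fun a q => h _ (q.trans_le k1), k4⟩
  | nsy g n => exact ⟨fun a ha => (k.1 a ha).trans_le l, by rw [Cl.cg fun a ha => h _ (k.1 a ha)]; exact k.2⟩
  | ncl z M =>
    obtain ⟨k1, k2, X, O, k3, k4⟩ := k
    exact ⟨k1.trans_le l, k2.trans_le p, X, O, k3.cg fun a q => h _ (lt_of_bit k2 q), by rwa [h _ k1]⟩
  | csy g els =>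
    obtain ⟨k1, k2, S, k3, k4⟩ := k
    exact ⟨fun a ha => (k1 a ha).trans_le l, fun a ha => (k2 a ha).trans_le l, S, k3.cg fun a q => h _ (k2 a q), by
      rwa [Cl.cg fun a ha => h _ (k1 a ha)]⟩
  | cz n M j =>
    have e := fun a (q : a < n) => h a (q.trans_le k.1)
    exact ⟨k.1.trans l, fun x hx q S s => e x hx ▸ k.2 x hx q S (s.cg fun a q => (e a q).symm)⟩
  | _ => exact k

end

structure Cx (E : Env G) (W : List Lv) (m : Op2) (fs : List Fa) (xs : List G) : Prop where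
  tw : Tw W
  rel : Rel W xs
  meq : Meq W m
  inj : Inj (ev W xs) (sz W)
  fa : ∀ f ∈ fs, Sem E (ev W xs) (sz W) f

structure St where
  run : List Lv → Op2 → List Fa → Fa
  ok : ∀ {G : Type u} [Group G] [Finite G] {E : Env G} {W m fs xs}, Cx E W m fs xs → Sem E (ev W xs) (sz W) (run W m fs)

structure Nd where
  chk : List Lv → Op2 → List Fa → Bool
  ok : ∀ {G : Type u} [Group G] [Finite G] {E : Env G} {W m fs xs}, Cx E W m fs xs → chk W m fs = true → Cc E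

/-- a goal: the facts `fs` about the tower `W` give the conclusion -/
def Gl (W : List Lv) (fs : List Fa) : Prop :=
  ∀ {G : Type u} [Group G] [Finite G] {E : Env G} {xs}, Cx E W (mul W) fs xs → Cc E

theorem Gl.of {W : List Lv} {m : Op2} {fs : List Fa} (h : Meq W m) (n : Nd.{u}) (k : n.chk W m fs = true) :
    Gl.{u} W fs := fun C => n.ok ⟨C.tw, C.rel, h, C.inj, C.fa⟩ k

noncomputable abbrev nf (fs : List Fa) (i : ℕ) : Fa := nth .tt fs i
noncomputable abbrev gd (b : Bool) (f : Fa) : Fa := Bool.rec .tt f b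

noncomputable def fwd {α : Type} (f : Fa) (k : Fa → α) : α :=
  Fa.rec (motive := fun _ => α) (k .tt) (k .dn) (fun a b c => k (.rc a b c)) (fun a b => k (.nf a b))
    (fun a b => k (.cen a b)) (fun a b c => k (.tsy a b c)) (fun a => k (.syl a)) (fun a => k (.is a))
    (fun a b => k (.nsy a b)) (fun a b => k (.ncl a b)) (fun a b => k (.csy a b)) (fun a b c => k (.cz a b c)) f

theorem fwd_eq {α : Type} (f : Fa) (k : Fa → α) : fwd f k = k f := by cases f <;> rfl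

def Fa.kn : Fa → List T3
  | .rc kn _ _ => kn
  | _ => []

noncomputable def sift (m : Op2) (kn : List T3) : ℕ → (ℕ → Bool) → Bool :=
  List.rec (motive := fun _ => ℕ → (ℕ → Bool) → Bool) (fun e k => an (Nat.beq e (nat_lit 0)) (k (nat_lit 0)))
    (fun r _ ih e k => Bool.rec (ih e k) (force (m e r.2.1) fun e' => ih e' fun x =>
      Bool.rec (force (m x r.2.2) k) (k r.2.2) (Nat.beq x (nat_lit 0))) (blt (Nat.xor e r.1) e)) kn

inductive Op
  | i (p q : ℕ)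
  | r (kn : List T3)

noncomputable def rop (m : Op2) (os : List Op) : ℕ → (ℕ → Bool) → Bool :=
  List.rec (motive := fun _ => ℕ → (ℕ → Bool) → Bool) (fun e k => k e) (fun o _ ih e k =>
    Op.rec (motive := fun _ => Bool) (fun p q => force (m p e) fun x => force (m x q) fun y => ih y k)
      (fun kn => sift m kn e fun y => ih y k) o) os

noncomputable def rsv {α : Type} (N : ℕ) (m : Op2) (fs : List Fa) (d : α) (ops : List T3) : (List Op → α) → α :=
  List.rec (motive := fun _ => (List Op → α) → α) (fun k => k []) (fun o _ ih k => Nat.rec (motive := fun _ => α)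
    (Bool.rec d (ih fun os => k (.i o.2.1 o.2.2 :: os))
      (an (blt o.2.1 N) (an (blt o.2.2 N) (Nat.beq (m o.2.1 o.2.2) (nat_lit 0)))))
    (fun j _ => List.rec (motive := fun _ => α) d (fun a t _ => ih fun os => k (.r (a :: t) :: os)) (nf fs j).kn) o.1) ops

noncomputable def prd (m : Op2) (env w : List ℕ) : ℕ :=
  List.rec (motive := fun _ => ℕ) (nat_lit 0) (fun i r _ => force (nth (nat_lit 0) env i)
    (List.rec (motive := fun _ => ℕ → ℕ) (fun x => x) (fun j _ ih x =>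
      force (nth (nat_lit 0) env j) fun y => force (m x y) ih) r)) w

theorem prd_rel {m : Op2} {R : ℕ → ℕ → Prop} (h0 : R 0 0) (hm : ∀ {a b a' b'}, R a b → R a' b' → R (m a a') (m b b'))
    {e e' : List ℕ} (h : List.Forall₂ R e e') (w : List ℕ) : R (prd m e w) (prd m e' w) := by
  have n : ∀ i, R (nth 0 e i) (nth 0 e' i) := by
    induction h with
    | nil => exact fun _ => h0
    | cons a _ ih => exact fun i => by cases i; exacts [a, ih _]
  cases w with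
  | nil => exact h0
  | cons i r =>
    show R (force _ _) (force _ _)
    rw [force_eq, force_eq]
    have := n i
    generalize nth 0 e i = a, nth 0 e' i = b at this
    induction r generalizing a b with
    | nil => exact this
    | cons j r ih =>
      show R (force _ _) (force _ _)
      rw [force_eq, force_eq, force_eq, force_eq]
      exact ih _ _ (hm this (n j))

theorem prd_un {m : Op2} {Q : ℕ → Prop} (h0 : Q 0) (hm : ∀ {a b}, Q a → Q b → Q (m a b)) {e : List ℕ}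
    (h : ∀ a ∈ e, Q a) (w : List ℕ) : Q (prd m e w) :=
  prd_rel (R := fun a _ => Q a) h0 hm (List.forall₂_same.2 h) w

noncomputable def cm (m : Op2) (a b : ℕ) : Bool := Nat.beq (m a b) (m b a)
noncomputable def tops (W : List Lv) : List ℕ := lmap Lv.top W

variable {E : Env G} {W : List Lv} {m : Op2} {fs : List Fa} {xs : List G} (C : Cx E W m fs xs)

local notation "φ" => ev W xs
local notation "N" => sz W

theorem gd_ok {ψ : ℕ → G} {n : ℕ} {b : Bool} {f : Fa} (h : b = true → Sem E ψ n f) : Sem E ψ n (gd b f) := by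
  cases b
  exacts [trivial, h rfl]

include C

theorem Cx.nth (i : ℕ) : Sem E φ N (nf fs i) := (nth_mem_or .tt fs i).elim (C.fa _) fun e => by
  rw [nf, e]; trivial

theorem Cx.cons {f : Fa} (h : Sem E φ N f) : Cx E W m (f :: fs) xs :=
  ⟨C.tw, C.rel, C.meq, C.inj, List.forall_mem_cons.2 ⟨h, C.fa⟩⟩

theorem Cx.hm : Hm N m φ :=
  have h := hm_of C.tw.1 C.tw.2 C.rel
  ⟨h.1, h.2.1, fun a ha b hb => C.meq a ha b hb ▸ h.2.2 a ha b hb⟩

theorem Cx.pos : 0 < N := C.hm.1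
theorem Cx.z : φ 0 = 1 := C.hm.2.1
theorem Cx.lt {a b : ℕ} (ha : a < N) (hb : b < N) : m a b < N := (C.hm.2.2 a ha b hb).1
theorem Cx.mu {a b : ℕ} (ha : a < N) (hb : b < N) : φ (m a b) = φ a * φ b := (C.hm.2.2 a ha b hb).2
theorem Cx.pw {M : ℕ} (h : M < 2 ^ N) : M < 2 ^ 2 ^ llen W := C.tw.1.sz_eq ▸ h

theorem Cx.eq {a b c d : ℕ} (ha : a < N) (hb : b < N) (hc : c < N) (hd : d < N) :
    m a b = m c d ↔ φ a * φ b = φ c * φ d := by
  rw [← C.mu ha hb, ← C.mu hc hd]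
  exact ⟨congrArg _, C.inj _ (C.lt ha hb) _ (C.lt hc hd)⟩

theorem Cx.cm {a b : ℕ} (ha : a < N) (hb : b < N) : cm m a b = true ↔ φ a * φ b = φ b * φ a :=
  beq_iff.trans (C.eq ha hb hb ha)

theorem Cx.one {a : ℕ} (ha : a < N) : φ a = 1 ↔ a = 0 := ⟨fun e => C.inj _ ha _ C.pos (e.trans C.z.symm), fun e => e ▸ C.z⟩

theorem Cx.inv {a b : ℕ} (ha : a < N) (hb : b < N) (h : m a b = 0) : φ b = (φ a)⁻¹ :=
  eq_inv_of_mul_eq_one_right (by rw [← C.mu ha hb, h, C.z])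

theorem Cx.mp0 (g : G) : Mp φ N g 0 0 := ⟨C.pos, C.pos, by simp [C.z]⟩

theorem Cx.mpm {g : G} {a b a' b' : ℕ} (h : Mp φ N g a b) (k : Mp φ N g a' b') : Mp φ N g (m a a') (m b b') :=
  ⟨C.lt h.1 k.1, C.lt h.2.1 k.2.1, by rw [C.mu h.1 k.1, C.mu h.2.1 k.2.1, ← h.2.2, ← k.2.2]; group⟩

theorem Cx.sift {g : G} {kn : List T3} (h : Kn φ N g kn) {e : ℕ} {k : ℕ → Bool} (he : e < N)
    (q : sift m kn e k = true) :
    (∀ K : Subgroup G, (∀ r ∈ kn, φ r.1 ∈ K) → φ e ∈ K) ∧ ∃ x, Mp φ N g e x ∧ k x = true := by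
  induction kn generalizing e k with
  | nil =>
    obtain ⟨q1, q2⟩ := an_iff.1 q
    obtain rfl := beq_iff.1 q1
    exact ⟨fun K _ => C.z ▸ one_mem K, 0, C.mp0 g, q2⟩
  | cons r kn ih =>
    have h' : Kn φ N g kn := fun s hs => h s (List.mem_cons_of_mem _ hs)
    obtain ⟨a, b, c⟩ := h r List.mem_cons_self
    change Bool.rec (motive := fun _ => Bool) (L33.sift m kn e k) (force (m e r.2.1) fun e' => L33.sift m kn e' fun x =>
      Bool.rec (force (m x r.2.2) k) (k r.2.2) (Nat.beq x 0)) (blt (Nat.xor e r.1) e) = true at q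
    cases c1 : blt (Nat.xor e r.1) e <;> rw [c1] at q
    · exact ⟨fun K hK => (ih h' he q).1 K fun s hs => hK s (List.mem_cons_of_mem _ hs), (ih h' he q).2⟩
    · rw [force_eq] at q
      obtain ⟨q1, x, q2, q3⟩ := ih h' (C.lt he b) q
      have e1 : φ e = φ (m e r.2.1) * φ r.1 := by rw [C.mu he b, c, inv_mul_cancel_right]
      have e2 : g * φ e * g⁻¹ = φ x * φ r.2.2 := by rw [e1, ← q2.2.2, ← a.2.2]; group
      refine ⟨fun K hK => e1 ▸ mul_mem (q1 K fun s hs => hK s (List.mem_cons_of_mem _ hs)) (hK r List.mem_cons_self), ?_⟩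
      cases c2 : Nat.beq x 0 <;> rw [c2] at q3
      · exact ⟨_, ⟨he, C.lt q2.2.1 a.2.1, e2.trans (C.mu q2.2.1 a.2.1).symm⟩, by rwa [force_eq] at q3⟩
      · exact ⟨_, ⟨he, a.2.1, by rw [e2, beq_iff.1 c2, C.z, one_mul]⟩, q3⟩

theorem Cx.kn (i : ℕ) : ∃ g, Kn φ N g (nf fs i).kn := by
  have h := C.nth i
  generalize nf fs i = f at h
  cases f <;> first | exact h.imp fun _ => And.left | exact ⟨1, fun _ h => (List.not_mem_nil h).elim⟩

/-- the operations are induced by one element -/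
def Og (ψ : ℕ → G) (n : ℕ) (m : Op2) (g : G) (os : List Op) : Prop :=
  ∀ {e k}, e < n → rop m os e k = true → ∃ x, Mp ψ n g e x ∧ k x = true

theorem Cx.rsv {α : Type} {d : α} {P : α → Prop} (hd : P d) {ops : List T3} {k : List Op → α}
    (h : ∀ os g, Og φ N m g os → P (k os)) : P (rsv N m fs d ops k) := by
  induction ops generalizing k with
  | nil => exact h [] 1 fun he q => ⟨_, ⟨he, he, by simp⟩, q⟩
  | cons o ops ih =>
    obtain ⟨i, p, q⟩ := o
    cases i with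
    | zero =>
      show P (Bool.rec d (L33.rsv N m fs d ops fun os => k (.i p q :: os)) (an (blt p N) (an (blt q N) (Nat.beq (m p q) 0))))
      cases c : an (blt p N) (an (blt q N) (Nat.beq (m p q) 0))
      · exact hd
      simp only [an_iff, blt_iff, beq_iff] at c
      refine ih fun os g hg => h _ (g * φ p) fun {e k} he r => ?_
      change force (m p e) (fun x => force (m x q) fun y => rop m os y k) = true at r
      simp only [force_eq] at r
      obtain ⟨x, r1, r2⟩ := hg (C.lt (C.lt c.1 he) c.2.1) r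
      exact ⟨x, ⟨he, r1.2.1, by
        rw [← r1.2.2, C.mu (C.lt c.1 he) c.2.1, C.mu c.1 he, C.inv c.1 c.2.1 c.2.2]; group⟩, r2⟩
    | succ j =>
      show P (List.rec (motive := fun _ => α) d (fun a t _ => L33.rsv N m fs d ops fun os => k (.r (a :: t) :: os)) (nf fs j).kn)
      obtain ⟨g', hg'⟩ := C.kn j
      generalize (nf fs j).kn = kn at hg'
      cases kn with
      | nil => exact hd
      | cons a t =>
        refine ih fun os g hg => h _ (g * g') fun {e k} he r => ?_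
        obtain ⟨y, s1, s2⟩ := (C.sift hg' he r).2
        obtain ⟨x, r1, r2⟩ := hg s1.2.1 s2
        exact ⟨x, ⟨he, r1.2.1, by rw [← r1.2.2, ← s1.2.2]; group⟩, r2⟩

theorem Cx.top_lt {a : ℕ} (h : a ∈ tops W) : a < N := by
  rw [tops, lmap_eq] at h
  obtain ⟨L, hL, rfl⟩ := List.mem_map.1 h
  have := C.tw.1.top_le hL
  omega

/-- induction over the coded group -/
theorem Cx.ind {Q : G → Prop} (h1 : Q 1) (hm : ∀ x y, Q x → Q y → Q (x * y)) (h : ∀ a ∈ tops W, Q (φ a)) :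
    ∀ a < N, Q (φ a) :=
  C.tw.1.ind (P := fun a => Q (φ a)) (C.z ▸ h1) fun L hL b hb q => by
    rw [ev_add C.tw.1 hL hb]
    exact hm _ _ q (h _ (by rw [tops, lmap_eq]; exact List.mem_map_of_mem hL))

variable [Finite G]

omit C in
/-- a subgroup given by closure under products -/
def sbg (p : G → Prop) (h1 : p 1) (hm : ∀ x y, p x → p y → p (x * y)) : Subgroup G where
  carrier := {x | p x}
  one_mem' := h1
  mul_mem' := hm _ _
  inv_mem' := fun {x} hx => by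
    have : ∀ n : ℕ, p (x ^ n) := fun n => n.rec (by simpa using h1) fun n ih => pow_succ x n ▸ hm _ _ ih hx
    have e : x⁻¹ = x ^ (orderOf x - 1) := inv_eq_of_mul_eq_one_right (by
      rw [← pow_succ', Nat.sub_add_cancel (orderOf_pos x), pow_orderOf_eq_one])
    exact e ▸ this _

/-- the coded group -/
def Cx.P : Subgroup G := sbg (fun x => ∃ a, a < N ∧ φ a = x) ⟨0, C.pos, C.z⟩ (by
  rintro _ _ ⟨a, ha, rfl⟩ ⟨b, hb, rfl⟩; exact ⟨_, C.lt ha hb, C.mu ha hb⟩)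

theorem Cx.sb : Sb φ C.P (· < N) := fun _ => Iff.rfl
theorem Cx.mem {a : ℕ} (h : a < N) : φ a ∈ C.P := ⟨a, h, rfl⟩
theorem Cx.eqP {S : Subgroup G} (h : Sb φ S (· < N)) : S = C.P := Subgroup.ext h

theorem Cx.card {S : Subgroup G} {M : ℕ} (l : M < 2 ^ N) (h : Sb φ S (M.testBit · = true)) :
    Nat.card S = (bits N M).card := by
  rw [← Nat.card_eq_finsetCard]
  refine (Nat.card_congr (Equiv.ofBijective (fun a : bits N M => (⟨φ a, (h _).2 ⟨a, (mem_bits.1 a.2).2, rfl⟩⟩ : S))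
    ⟨fun a b e => Subtype.ext (C.inj _ (mem_bits.1 a.2).1 _ (mem_bits.1 b.2).1 (congrArg Subtype.val e)), fun x => ?_⟩)).symm
  obtain ⟨a, ha, e⟩ := (h _).1 x.2
  exact ⟨⟨a, mem_bits.2 ⟨lt_of_bit l ha, ha⟩⟩, Subtype.ext e⟩

theorem Cx.cnt {M : ℕ} (l : M < 2 ^ N) : cntM (llen W) M = (bits N M).card := by
  rw [cntM_spec (C.pw l), C.tw.1.sz_eq]

theorem Cx.cardP : Nat.card C.P = N := by
  rw [C.card (full_lt N) fun x => by simp only [bit_full]; exact C.sb x, bits, Finset.filter_true_of_mem fun i hi =>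
    bit_full.2 (Finset.mem_range.1 hi), Finset.card_range]

theorem Cx.pg : IsPGroup 2 C.P := IsPGroup.of_card (C.cardP.trans C.tw.1.sz_eq)

theorem Cx.two {x : G} (h : x ∈ C.P) : ∃ k, x ^ 2 ^ k = 1 := isPGroup_iff_forall.1 C.pg x h

theorem Cx.allN {f : ℕ → Bool} (h : allBin f N (llen W) (nat_lit 0) = true) : ∀ a < N, f a = true :=
  allBin_spec h C.tw.1.sz_eq.le

end CF.L33
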